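import Cfsg.Agent.AbelianSylowZStar.Aut
import Cfsg.Agent.SL2.SylowTwoNormalizer
import Cfsg.Agent.H29.Dickson.Solvable
import Cfsg.Prelude.Def_TwoFusion

set_option autoImplicit false
set_option linter.style.haveILetI false

/-!
Simple groups with abelian Sylow 2-subgroups and an involution centraliser `⟨t⟩ × E`, `E` over `PSL(2,q)`.
-/

namespace CfsgLib.PslTimesTwo

open Subgroup Cfsg
open scoped Pointwise commutatorElement

/-- The projective group. -/
local notation "P2 " F => Matrix.ProjectiveSpecialLinearGroup (Fin 2) F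

theorem core_bot {X : Type*} [Group X] [Finite X] [IsSimpleGroup X] (h : 2 ∣ Nat.card X) :
    Cfsg.pPrimeCore 2 X = ⊥ := by
  refine le_bot_iff.1 (sSup_le fun N hN => ?_)
  rcases IsSimpleGroup.eq_bot_or_eq_top_of_normal N hN.1 with h1 | h1
  · exact h1.le
  · exfalso
    have h2 := hN.2
    rw [h1, Subgroup.card_top] at h2
    have := Nat.eq_one_of_dvd_coprimes h2 h (dvd_refl 2)
    omega

theorem center_bot {X : Type*} [Group X] [IsSimpleGroup X] (h : ¬ IsMulCommutative X) :
    Subgroup.center X = ⊥ := by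
  refine (IsSimpleGroup.eq_bot_or_eq_top_of_normal _ inferInstance).resolve_right fun h1 => h ⟨⟨fun a b => ?_⟩⟩
  exact Subgroup.mem_center_iff.1 (h1 ▸ Subgroup.mem_top b) a

/-- An abelian Sylow 2-subgroup of `PSL(2,q)` has at most four elements. -/
theorem card_sylow_psl {F : Type*} [Field F] [Fintype F] (hF : Odd (Fintype.card F))
    (hab : ∀ Q : Sylow 2 (Matrix.ProjectiveSpecialLinearGroup (Fin 2) F), IsMulCommutative (Q : Subgroup (P2 F)))
    (Q : Sylow 2 (Matrix.ProjectiveSpecialLinearGroup (Fin 2) F)) : Nat.card (Q : Subgroup (P2 F)) ≤ 4 := by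
  classical
  haveI : Fact (Nat.Prime 2) := ⟨Nat.prime_two⟩
  let π : Matrix.SpecialLinearGroup (Fin 2) F →* Matrix.ProjectiveSpecialLinearGroup (Fin 2) F :=
    QuotientGroup.mk' _
  have hπ : Function.Surjective π := QuotientGroup.mk'_surjective _
  have hodd : Odd (Nat.card F) := by rwa [Nat.card_eq_fintype_card]
  let P : Sylow 2 (Matrix.SpecialLinearGroup (Fin 2) F) := default
  obtain ⟨d⟩ := CfsgLib.SL2.exists_sylowTwoData hodd P
  let PQ := P.mapSurjective hπ
  have hcard : Nat.card (Q : Subgroup (P2 F)) = Nat.card (PQ : Subgroup (P2 F)) := by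
    rw [Q.card_eq_multiplicity, PQ.card_eq_multiplicity]
  have hPQ : (PQ : Subgroup (P2 F)) = (P : Subgroup _).map π := rfl
  rw [hcard, hPQ]
  have hA : π d.A ∈ (P : Subgroup _).map π := mem_map_of_mem π d.A_mem
  have hw : π d.w ∈ (P : Subgroup _).map π := mem_map_of_mem π d.w_mem
  have hcomm : π d.w * π d.A = π d.A * π d.w :=
    congrArg Subtype.val ((hab PQ).is_comm.comm ⟨_, hw⟩ ⟨_, hA⟩)
  have hinv := CfsgLib.SL2.inverting_all d.tr_sq_ne d.inverting d.mem_centralizer
  have hA2 : π d.A * π d.A = 1 := by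
    have h1 := congrArg π hinv
    rw [map_mul, map_mul, map_inv, map_inv, hcomm, mul_inv_cancel_right] at h1
    exact eq_inv_iff_mul_eq_one.1 h1
  have hpow : ∀ i : ℕ, π d.A ^ i = 1 ∨ π d.A ^ i = π d.A := by
    intro i
    induction i with
    | zero => exact Or.inl (pow_zero _)
    | succ i ih =>
      rcases ih with h | h
      · exact Or.inr (by rw [pow_succ, h, one_mul])
      · exact Or.inl (by rw [pow_succ, h, hA2])
  have hsub : (((P : Subgroup _).map π : Subgroup (P2 F)) : Set (P2 F)) ⊆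
      (({1, π d.A, π d.w, π d.w * π d.A} : Finset (P2 F)) : Set (P2 F)) := by
    rintro _ ⟨x, hx, rfl⟩
    obtain ⟨i, rfl | rfl⟩ := d.mem_cases x hx
    · rcases hpow i with h | h <;> simp [h]
    · rcases hpow i with h | h <;> simp [h]
  refine le_trans ?_ (Finset.card_le_four (a := (1 : Matrix.ProjectiveSpecialLinearGroup (Fin 2) F))
    (b := π d.A) (c := π d.w) (d := π d.w * π d.A))
  rw [← Set.ncard_coe_finset, ← Nat.card_coe_set_eq]
  exact Nat.card_mono (Finset.finite_toSet _) hsub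

variable {G : Type*} [Group G] [Finite G]

/-- The configuration: the Sylow subgroup and the simple normal subgroup of the centraliser. -/
structure Config (G : Type*) [Group G] where
  t : G
  N : Subgroup G
  S : Sylow 2 G
  ht : orderOf t = 2
  htS : t ∈ (S : Subgroup G)
  hab : ∀ a ∈ (S : Subgroup G), ∀ b ∈ (S : Subgroup G), a * b = b * a
  hNt : ∀ n ∈ N, n * t = t * n
  hsimple : IsSimpleGroup N
  hnc : ¬ IsMulCommutative N
  hV : ∀ Q : Subgroup G, Q ≤ N → IsPGroup 2 Q → (S : Subgroup G) ⊓ N ≤ Q → Q ≤ S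
  hV4 : Nat.card ↥((S : Subgroup G) ⊓ N) ≤ 4
  hdec : ∀ s ∈ (S : Subgroup G), s ∈ N ∨ t * s ∈ N

theorem exists_config [IsSimpleGroup G] (hab : ∀ S : Sylow 2 G, IsMulCommutative ↥(S : Subgroup G))
    (t : G) (ht : orderOf t = 2)
    (E : Subgroup G) (hE : Cfsg.IsInternalDirectProduct (Subgroup.zpowers t) E (Subgroup.centralizer ({t} : Set G)))
    {F : Type*} [Field F] [Fintype F] (hFo : Odd (Fintype.card F)) (hF3 : 3 < Fintype.card F)
    (N : Subgroup ↥E) [N.Normal] (hN : Nonempty (↥N ≃* Matrix.ProjectiveSpecialLinearGroup (Fin 2) F))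
    (hNc : Subgroup.centralizer (N : Set ↥E) = ⊥) : Nonempty (Config G) := by
  classical
  haveI : Fact (Nat.Prime 2) := ⟨Nat.prime_two⟩
  obtain ⟨e⟩ := hN
  obtain ⟨hs, hnc, -⟩ := CfsgLib.H29.Dickson.not_solvable_PSL (K := F) hF3
  haveI := hs
  haveI : Nontrivial N := e.toEquiv.nontrivial
  haveI : IsSimpleGroup N := IsSimpleGroup.isSimpleGroup_of_surjective e.symm.toMonoidHom e.symm.surjective
  obtain ⟨htC, hEC, hcomm, hdisj, hjoin⟩ := hE
  have hts : IsPGroup 2 (zpowers t) := IsPGroup.of_card (n := 1) (by rw [Nat.card_zpowers, ht, pow_one])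
  obtain ⟨S, hS⟩ := hts.exists_le_sylow
  have htS : t ∈ (S : Subgroup G) := hS (mem_zpowers t)
  have habS : ∀ a ∈ (S : Subgroup G), ∀ b ∈ (S : Subgroup G), a * b = b * a := fun a ha b hb =>
    congrArg Subtype.val ((hab S).is_comm.comm ⟨a, ha⟩ ⟨b, hb⟩)
  have hSC : (S : Subgroup G) ≤ centralizer ({t} : Set G) := fun s hs =>
    mem_centralizer_singleton_iff.2 (habS s hs t htS)
  let N' : Subgroup G := N.map E.subtype
  have hN'E : N' ≤ E := map_subtype_le N
  have hN't : ∀ n ∈ N', n * t = t * n := fun n hn => (hcomm t (mem_zpowers t) n (hN'E hn)).symm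
  have hnorm : centralizer ({t} : Set G) ≤ normalizer (N' : Set G) := by
    rw [← hjoin, sup_le_iff]
    refine ⟨zpowers_le.2 (mem_normalizer_iff.2 fun x => ?_), fun x hx => mem_normalizer_iff.2 fun y => ?_⟩
    · constructor <;> intro hx
      · rwa [← hN't x hx, mul_inv_cancel_right]
      · have h := hN't _ hx
        have e1 : t * x * t⁻¹ = x := by
          have : t * x * t⁻¹ * t = t * x := by group
          rw [this] at h
          exact (mul_left_cancel h).symm
        rwa [e1] at hx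
    · constructor
      · rintro ⟨n, hn, rfl⟩
        exact ⟨⟨x, hx⟩ * n * ⟨x, hx⟩⁻¹, Subgroup.Normal.conj_mem inferInstance n hn _, rfl⟩
      · intro h
        obtain ⟨n, hn, hny⟩ := h
        refine ⟨⟨x, hx⟩⁻¹ * n * ⟨x, hx⟩, ?_, ?_⟩
        · simpa using Subgroup.Normal.conj_mem inferInstance n hn (⟨x, hx⟩⁻¹ : E)
        · show x⁻¹ * E.subtype n * x = y
          rw [hny]; group
  have hV : ∀ Q : Subgroup G, Q ≤ N' → IsPGroup 2 Q → (S : Subgroup G) ⊓ N' ≤ Q → Q ≤ S := by
    intro Q hQN hQp hVQ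
    have hQC : Q ≤ centralizer ({t} : Set G) := fun q hq => mem_centralizer_singleton_iff.2 (hN't q (hQN hq))
    let SC : Sylow 2 (centralizer ({t} : Set G)) := S.subtype hSC
    obtain ⟨R, hR⟩ := (hQp.comap_subtype (K := centralizer ({t} : Set G))).exists_le_sylow
    obtain ⟨c, hc⟩ := MulAction.exists_smul_eq (centralizer ({t} : Set G)) R SC
    have hconj : ∀ q ∈ Q, (c : G) * q * (c : G)⁻¹ ∈ (S : Subgroup G) ⊓ N' := by
      intro q hq
      refine ⟨?_, (mem_normalizer_iff.1 (hnorm c.2) q).1 (hQN hq)⟩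
      have h1 : (⟨q, hQC hq⟩ : centralizer ({t} : Set G)) ∈ (R : Subgroup _) := hR hq
      have h2 : MulAut.conj c (⟨q, hQC hq⟩ : centralizer ({t} : Set G)) ∈ (SC : Subgroup _) := by
        rw [← hc]
        exact Subgroup.smul_mem_pointwise_smul _ (MulAut.conj c) _ h1
      exact h2
    have hle : Nat.card Q ≤ Nat.card ↥((S : Subgroup G) ⊓ N') :=
      Nat.card_le_card_of_injective (fun q : Q => (⟨_, hconj q q.2⟩ : ↥((S : Subgroup G) ⊓ N')))
        fun a b h => Subtype.ext (by simpa using congrArg Subtype.val h)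
    exact (Subgroup.eq_of_le_of_card_ge hVQ hle).symm.le.trans inf_le_left
  haveI : Nontrivial N' := (N.equivMapOfInjective E.subtype E.subtype_injective).symm.toEquiv.nontrivial
  have hN's : IsSimpleGroup N' :=
    IsSimpleGroup.isSimpleGroup_of_surjective (N.equivMapOfInjective E.subtype E.subtype_injective).toMonoidHom
      (N.equivMapOfInjective E.subtype E.subtype_injective).surjective
  let eN : N' ≃* Matrix.ProjectiveSpecialLinearGroup (Fin 2) F :=
    (N.equivMapOfInjective E.subtype E.subtype_injective).symm.trans e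
  have hN'nc : ¬ IsMulCommutative N' := fun h => hnc ⟨⟨fun a b => by
    obtain ⟨a, rfl⟩ := eN.surjective a
    obtain ⟨b, rfl⟩ := eN.surjective b
    rw [← map_mul, ← map_mul, h.is_comm.comm]⟩⟩
  -- the Sylow subgroup of `N`
  let V0 : Subgroup N := ((S : Subgroup G) ⊓ N').comap (E.subtype.comp N.subtype)
  have hinj : Function.Injective (E.subtype.comp N.subtype) := E.subtype_injective.comp N.subtype_injective
  have hV0p : IsPGroup 2 V0 := (S.isPGroup'.to_le inf_le_left).comap_of_injective _ hinj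
  let VS : Sylow 2 N :=
    { toSubgroup := V0
      isPGroup' := hV0p
      is_maximal' := fun {Q} hQ hle => by
        refine le_antisymm (fun q hq => ?_) hle
        have hQN : Q.map (E.subtype.comp N.subtype) ≤ N' := by
          rintro _ ⟨x, -, rfl⟩
          exact ⟨x.1, x.2, rfl⟩
        have h := hV _ hQN (hQ.map _) (fun x hx => by
          obtain ⟨n, hn, rfl⟩ := hx.2
          exact ⟨⟨n, hn⟩, hle hx, rfl⟩)
        exact ⟨h (mem_map_of_mem _ hq), hQN (mem_map_of_mem _ hq)⟩ }
  have hVab : ∀ a ∈ (VS : Subgroup N), ∀ b ∈ (VS : Subgroup N), a * b = b * a := fun a ha b hb =>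
    hinj (by rw [map_mul, map_mul]; exact habS _ ha.1 _ hb.1)
  have hNab : ∀ R : Sylow 2 N, IsMulCommutative (R : Subgroup N) := by
    intro R
    obtain ⟨n, hn⟩ := MulAction.exists_smul_eq N R VS
    refine ⟨⟨fun a b => Subtype.ext ?_⟩⟩
    have hm : ∀ x : (R : Subgroup N), MulAut.conj n (x : N) ∈ (VS : Subgroup N) := fun x => by
      rw [← hn]; exact Subgroup.smul_mem_pointwise_smul _ (MulAut.conj n) _ x.2
    have := hVab _ (hm a) _ (hm b)
    rw [← map_mul, ← map_mul] at this
    exact (MulAut.conj n).injective this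
  have hPab : ∀ Q : Sylow 2 (Matrix.ProjectiveSpecialLinearGroup (Fin 2) F), IsMulCommutative (Q : Subgroup (P2 F)) := by
    intro Q
    let Q' : Sylow 2 N := Q.comapOfInjective e.toMonoidHom e.injective
      (fun x _ => ⟨e.symm x, e.apply_symm_apply x⟩)
    refine ⟨⟨fun a b => Subtype.ext ?_⟩⟩
    have ha : e.symm a ∈ (Q' : Subgroup N) := by
      show e (e.symm a) ∈ (Q : Subgroup (P2 F)); rw [e.apply_symm_apply]; exact a.2
    have hb : e.symm b ∈ (Q' : Subgroup N) := by
      show e (e.symm b) ∈ (Q : Subgroup (P2 F)); rw [e.apply_symm_apply]; exact b.2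
    have := congrArg Subtype.val ((hNab Q').is_comm.comm ⟨_, ha⟩ ⟨_, hb⟩)
    apply e.symm.injective
    simp only [Subgroup.coe_mul, map_mul]
    exact this
  have hV4 : Nat.card ↥((S : Subgroup G) ⊓ N') ≤ 4 := by
    have h1 := card_sylow_psl hFo hPab (VS.mapSurjective (f := e.toMonoidHom) e.surjective)
    have h2 : Nat.card (VS : Subgroup N) = Nat.card ↥((VS : Subgroup N).map e.toMonoidHom) :=
      Nat.card_congr (Subgroup.equivMapOfInjective _ e.toMonoidHom e.injective).toEquiv
    have h3 : (V0.map (E.subtype.comp N.subtype)) = (S : Subgroup G) ⊓ N' := by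
      refine le_antisymm (map_le_iff_le_comap.2 le_rfl) fun x hx => ?_
      obtain ⟨n, hn, rfl⟩ := hx.2
      exact ⟨⟨n, hn⟩, hx, rfl⟩
    rw [← h3, ← Nat.card_congr (Subgroup.equivMapOfInjective V0 _ hinj).toEquiv]
    exact le_of_eq_of_le h2 h1
  refine ⟨⟨t, N', S, ht, htS, habS, hN't, hN's, hN'nc, hV, hV4, fun s hs => ?_⟩⟩
  -- the centraliser of the Sylow subgroup of `N`
  have hsC := hSC hs
  rw [← hjoin] at hsC
  have key : ∀ x : E, (x : G) ∈ (S : Subgroup G) → (x : G) ∈ N' := by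
    intro x hx
    have hα : ∀ y ∈ (VS : Subgroup N), MulAut.conjNormal x y = y := by
      intro y hy
      refine Subtype.ext (Subtype.ext ?_)
      show ((x : E) : G) * ((y : E) : G) * ((x : E) : G)⁻¹ = _
      have hc : ((x : E) : G) * ((y : E) : G) = ((y : E) : G) * ((x : E) : G) := habS _ hx _ hy.1
      rw [hc, mul_inv_cancel_right]
    obtain ⟨j, hj⟩ := IsPGroup.iff_orderOf.1 S.isPGroup' ⟨x, hx⟩
    have hxo : orderOf x = 2 ^ j := by rw [← hj, ← Subgroup.orderOf_coe x, Subgroup.orderOf_mk]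
    obtain ⟨i, -, hi⟩ := (Nat.dvd_prime_pow Nat.prime_two).1
      (hxo ▸ orderOf_map_dvd (MulAut.conjNormal (H := N)) x)
    have h2N : 2 ∣ Nat.card N := by
      by_contra hodd
      have hN2 : Nat.card (Matrix.ProjectiveSpecialLinearGroup (Fin 2) F) % 2 = 1 := by
        rw [← Nat.card_congr e.toEquiv]; omega
      have hd : Nat.card (Matrix.SpecialLinearGroup (Fin 2) F) % 2 = 0 := by
        obtain ⟨d⟩ := CfsgLib.SL2.exists_sylowTwoData (F := F) (by rwa [Nat.card_eq_fintype_card]) default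
        have := orderOf_dvd_natCard d.A
        rw [d.orderOf_A, pow_succ] at this
        exact Nat.mod_eq_zero_of_dvd (dvd_of_mul_left_dvd this)
      obtain ⟨d⟩ := CfsgLib.SL2.exists_sylowTwoData (F := F) (by rwa [Nat.card_eq_fintype_card]) default
      have hπ : QuotientGroup.mk' (Subgroup.center _) d.A ≠ 1 := fun h =>
        d.A_not_center (by
          intro h0
          have h4 : ringChar F = 2 := CharP.ringChar_of_prime_eq_zero Nat.prime_two (by exact_mod_cast h0)
          haveI := ringChar.charP F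
          obtain ⟨n, hp, hn⟩ := FiniteField.card F (ringChar F)
          rw [hn, h4] at hFo
          exact (Nat.not_odd_iff_even.2 (Nat.even_pow.2 ⟨even_two, n.ne_zero⟩)) hFo)
          ((QuotientGroup.eq_one_iff _).1 h)
      obtain ⟨i, -, hi⟩ := (Nat.dvd_prime_pow Nat.prime_two).1
        (d.orderOf_A ▸ orderOf_map_dvd (QuotientGroup.mk' (Subgroup.center _)) d.A)
      rcases i with _ | i
      · exact hπ (orderOf_eq_one_iff.1 hi)
      · have h5 : 2 ∣ Nat.card (Matrix.ProjectiveSpecialLinearGroup (Fin 2) F) :=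
          (dvd_pow_self 2 (Nat.succ_ne_zero i)).trans (hi ▸ orderOf_dvd_natCard _)
        omega
    obtain ⟨n, hn⟩ := CfsgLib.AbelianSylowZStar.aut_inner (core_bot h2N) VS (hNab VS)
      (MulAut.conjNormal x) ⟨i, hi⟩ hα
    have hc : (n : E)⁻¹ * x ∈ centralizer (N : Set E) := mem_centralizer_iff.2 fun y hy => by
      have h1 : x * y * x⁻¹ = (n : E) * y * (n : E)⁻¹ := congrArg Subtype.val (hn ⟨y, hy⟩)
      calc y * ((n : E)⁻¹ * x) = (n : E)⁻¹ * ((n : E) * y * (n : E)⁻¹) * x := by group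
        _ = (n : E)⁻¹ * (x * y * x⁻¹) * x := by rw [h1]
        _ = (n : E)⁻¹ * x * y := by group
    rw [hNc, mem_bot, inv_mul_eq_one] at hc
    exact ⟨n, n.2, congrArg Subtype.val hc⟩
  have hset : ∀ z ∈ zpowers t, z = 1 ∨ z = t := by
    intro z hz
    obtain ⟨i, hi⟩ := (mem_zpowers_iff_mem_range_orderOf.1 hz) |> Finset.mem_image.1
    obtain ⟨hir, rfl⟩ := hi
    rw [Finset.mem_range, ht] at hir
    interval_cases i <;> simp
  haveI : (E.subgroupOf (centralizer ({t} : Set G))).Normal := by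
    refine (Subgroup.normal_subgroupOf_iff_le_normalizer (hjoin ▸ le_sup_right)).2 ?_
    rw [← hjoin, sup_le_iff]
    refine ⟨zpowers_le.2 (mem_normalizer_iff.2 fun y => ?_), le_normalizer⟩
    constructor <;> intro hy
    · rwa [hcomm t (mem_zpowers t) y hy, mul_inv_cancel_right]
    · have h := hcomm t (mem_zpowers t) _ hy
      have e1 : t * y * t⁻¹ = y := by
        calc t * y * t⁻¹ = t⁻¹ * (t * (t * y * t⁻¹)) := by group
          _ = t⁻¹ * ((t * y * t⁻¹) * t) := by rw [h]
          _ = y := by group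
      rwa [e1] at hy
  have hmul : ∃ z ∈ zpowers t, ∃ x ∈ E, z * x = s := by
    have hle : zpowers t ≤ normalizer (E : Set G) :=
      htC.trans ((Subgroup.normal_subgroupOf_iff_le_normalizer (hjoin ▸ le_sup_right)).1 inferInstance)
    have h : s ∈ ((zpowers t ⊔ E : Subgroup G) : Set G) := hsC
    rw [coe_mul_of_left_le_normalizer_right _ _ hle] at h
    obtain ⟨z, hz, x, hx, h⟩ := h
    exact ⟨z, hz, x, hx, h⟩
  obtain ⟨z, hz, x, hx, rfl⟩ := hmul
  have hxS : x ∈ (S : Subgroup G) := ((S : Subgroup G).mul_mem_cancel_left (hS hz)).1 hs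
  have hxN := key ⟨x, hx⟩ hxS
  rcases hset z hz with rfl | rfl
  · left; rwa [one_mul]
  · right
    have h2 : z * z = 1 := by rw [← pow_two, ← ht]; exact pow_orderOf_eq_one z
    rwa [← mul_assoc, h2, one_mul]

/-- No perfect central extension by a 2-group. -/
theorem no_cover [IsSimpleGroup G] (hG : ¬ IsMulCommutative G) (c : Config G)
    {L : Type*} [Group L] [Finite L] (φ : L →* G) (hφ : Function.Surjective φ)
    (hperf : commutator L = ⊤) (hker : φ.ker ≤ Subgroup.center L) (hkp : IsPGroup 2 φ.ker) : φ.ker = ⊥ := by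
  classical
  haveI : Fact (Nat.Prime 2) := ⟨Nat.prime_two⟩
  obtain ⟨t, N, S, ht, htS, hab, hNt, hsimple, hnc, hV, hV4, hdec⟩ := c
  haveI := hsimple
  have hz : ∀ a b : L, φ a = φ b → ∃ z ∈ φ.ker, a = b * z := fun a b h =>
    ⟨b⁻¹ * a, by rw [MonoidHom.mem_ker, map_mul, map_inv, h, inv_mul_cancel], by group⟩
  have hzc : ∀ z ∈ φ.ker, ∀ a : L, z * a = a * z := fun z hz a => (mem_center_iff.1 (hker hz) a).symm
  have ht2 : t * t = 1 := by rw [← pow_two, ← ht]; exact pow_orderOf_eq_one t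
  have ht1 : t ≠ 1 := fun h => by rw [h, orderOf_one] at ht; omega
  obtain ⟨τ, hτ⟩ := hφ t
  -- the radical of the commutator pairing
  let R : Subgroup G :=
    { carrier := {s | s ∈ (S : Subgroup G) ∧ ∀ a b : L, φ a = s → φ b ∈ (S : Subgroup G) → a * b = b * a}
      one_mem' := ⟨one_mem _, fun a b ha _ => hzc a ha b⟩
      mul_mem' := by
        intro x y hx hy
        refine ⟨mul_mem hx.1 hy.1, fun a b ha hb => ?_⟩
        obtain ⟨x', rfl⟩ := hφ x
        have h1 := hx.2 x' b rfl hb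
        have h2 := hy.2 (x'⁻¹ * a) b (by rw [map_mul, map_inv, ha, inv_mul_cancel_left]) hb
        calc a * b = x' * ((x'⁻¹ * a) * b) := by group
          _ = x' * b * (x'⁻¹ * a) := by rw [h2]; group
          _ = b * x' * (x'⁻¹ * a) := by rw [h1]
          _ = b * a := by group
      inv_mem' := by
        intro x hx
        refine ⟨inv_mem hx.1, fun a b ha hb => ?_⟩
        have h := hx.2 a⁻¹ b (by rw [map_inv, ha, inv_inv]) hb
        calc a * b = a * (b * a⁻¹) * a := by group
          _ = a * (a⁻¹ * b) * a := by rw [h]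
          _ = b * a := by group }
  have hNM : ∀ m : L, φ m ∈ N → τ * m = m * τ := by
    have hc : commutator N = ⊤ := by
      rcases IsSimpleGroup.eq_bot_or_eq_top_of_normal (commutator N) inferInstance with h | h
      · refine absurd (⟨⟨fun a b => ?_⟩⟩ : IsMulCommutative N) hnc
        have h1 := commutator_mem_commutator (mem_top a) (mem_top b)
        rw [← _root_.commutator_def, h, mem_bot, commutatorElement_eq_one_iff_mul_comm] at h1
        exact h1
      · exact h
    have hM : ⁅N.comap φ, N.comap φ⁆ ≤ centralizer ({τ} : Set L) := by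
      rw [commutator_le]
      intro a ha b hb
      rw [mem_centralizer_singleton_iff]
      have hm : ∀ a, φ a ∈ N → ∃ z ∈ φ.ker, τ * a * τ⁻¹ = a * z := fun a ha =>
        hz _ a (by rw [map_mul, map_mul, map_inv, hτ, ← hNt _ ha, mul_inv_cancel_right])
      obtain ⟨za, hza, ea⟩ := hm a ha
      obtain ⟨zb, hzb, eb⟩ := hm b hb
      have h : τ * ⁅a, b⁆ * τ⁻¹ = ⁅a, b⁆ := by
        have e1 : τ * ⁅a, b⁆ * τ⁻¹ = ⁅τ * a * τ⁻¹, τ * b * τ⁻¹⁆ := by
          simp only [commutatorElement_def]; group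
        rw [e1, ea, eb, commutatorElement_def, commutatorElement_def]
        calc a * za * (b * zb) * (a * za)⁻¹ * (b * zb)⁻¹
            = a * (za * (b * zb)) * za⁻¹ * a⁻¹ * zb⁻¹ * b⁻¹ := by group
          _ = a * b * (zb * a⁻¹) * zb⁻¹ * b⁻¹ := by rw [hzc za hza]; group
          _ = a * b * a⁻¹ * b⁻¹ := by rw [hzc zb hzb]; group
      exact (mul_inv_eq_iff_eq_mul.1 h).symm
    intro m hm
    have hmap : φ m ∈ (⁅N.comap φ, N.comap φ⁆).map φ := by
      rw [map_commutator, map_comap_eq_self_of_surjective hφ]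
      have : (⟨φ m, hm⟩ : N) ∈ commutator N := hc.symm ▸ mem_top _
      have h2 := mem_map_of_mem N.subtype this
      rwa [_root_.commutator_def, map_commutator, ← MonoidHom.range_eq_map, range_subtype] at h2
    obtain ⟨y, hy, hym⟩ := hmap
    obtain ⟨z, hz', e⟩ := hz m y hym.symm
    have h1 : y * τ = τ * y := mem_centralizer_singleton_iff.1 (hM hy)
    rw [e]
    calc τ * (y * z) = y * (τ * z) := by rw [← mul_assoc, ← h1, mul_assoc]
      _ = y * z * τ := by rw [← hzc z hz' τ, mul_assoc]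
  have htR : t ∈ R := by
    refine ⟨htS, fun a b ha hb => ?_⟩
    obtain ⟨z, hz', rfl⟩ := hz a τ (ha.trans hτ.symm)
    have hcomm : τ * b = b * τ := by
      rcases hdec _ hb with h | h
      · exact hNM b h
      · have h1 := hNM (τ * b) (by rw [map_mul, hτ]; exact h)
        rw [mul_assoc τ b τ] at h1
        exact mul_left_cancel h1
    rw [mul_assoc, hzc z hz' b, ← mul_assoc, hcomm, mul_assoc]
  have hRinv : ∀ g ∈ normalizer ((S : Subgroup G) : Set G), ∀ r ∈ R, g * r * g⁻¹ ∈ R := by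
    intro g hg r hr
    refine ⟨(mem_normalizer_iff.1 hg r).1 hr.1, fun a b ha hb => ?_⟩
    obtain ⟨g', rfl⟩ := hφ g
    have h := hr.2 (g'⁻¹ * a * g') (g'⁻¹ * b * g')
      (by rw [map_mul, map_mul, map_inv, ha]; group)
      ((mem_normalizer_iff.1 hg _).2 (by
        rw [map_mul, map_mul, map_inv, show φ g' * ((φ g')⁻¹ * φ b * φ g') * (φ g')⁻¹ = φ b by group]
        exact hb))
    calc a * b = g' * ((g'⁻¹ * a * g') * (g'⁻¹ * b * g')) * g'⁻¹ := by group
      _ = g' * ((g'⁻¹ * b * g') * (g'⁻¹ * a * g')) * g'⁻¹ := by rw [h]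
      _ = b * a := by group
  have h2G : 2 ∣ Nat.card G := ht ▸ orderOf_dvd_natCard t
  obtain ⟨g, hg, hgt⟩ : ∃ g ∈ normalizer ((S : Subgroup G) : Set G), g * t * g⁻¹ ≠ t := by
    by_contra hn
    push Not at hn
    have h := CfsgLib.AbelianSylowZStar.central_of_fixed 1 G (core_bot h2G) S hab t htS
      (fun n hn' => mul_inv_eq_iff_eq_mul.1 (hn n hn')) (by rw [pow_one, pow_two]; exact ht2)
    rw [center_bot hG, mem_bot] at h
    exact ht1 h
  have hu := hRinv g hg t htR
  obtain ⟨v, hv, hv1⟩ : ∃ v ∈ R ⊓ N, v ≠ 1 := by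
    rcases hdec _ hu.1 with h | h
    · exact ⟨_, ⟨hu, h⟩, fun e => ht1 (conj_eq_one_iff.1 e)⟩
    · refine ⟨_, ⟨mul_mem htR hu, h⟩, fun e => hgt ?_⟩
      exact mul_left_cancel (e.trans ht2.symm)
  have hRV : (S : Subgroup G) ⊓ N ≤ R := by
    by_contra hn
    have hlt : R ⊓ N < (S : Subgroup G) ⊓ N :=
      lt_of_le_of_ne (fun x hx => ⟨hx.1.1, hx.2⟩) fun e => hn (e ▸ inf_le_left)
    haveI : Finite ↥((S : Subgroup G) ⊓ N) := inferInstance
    obtain ⟨k, hk, hk'⟩ := (Nat.dvd_prime_pow Nat.prime_two).1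
      (show Nat.card ↥(R ⊓ N) ∣ 2 ^ 2 from by
        have h1 := Subgroup.card_dvd_of_le hlt.le
        obtain ⟨n, hn⟩ := IsPGroup.iff_card.1 (S.isPGroup'.to_le (inf_le_left : (S : Subgroup G) ⊓ N ≤ S))
        rw [hn] at h1 hV4
        exact h1.trans (pow_dvd_pow 2 ((Nat.pow_le_pow_iff_right (by norm_num)).1 hV4)))
    have hcl : Nat.card ↥(R ⊓ N) < 4 := by
      refine lt_of_lt_of_le ?_ hV4
      by_contra hle
      exact hlt.ne (Subgroup.eq_of_le_of_card_ge hlt.le (le_of_not_gt hle))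
    have hk1 : Nat.card ↥(R ⊓ N) = 2 := by
      have h1 : 1 < Nat.card ↥(R ⊓ N) := by
        rw [Subgroup.one_lt_card_iff_ne_bot]
        exact fun e => hv1 (by rw [e, mem_bot] at hv; exact hv)
      interval_cases k <;> simp_all
    let VN : Sylow 2 N :=
      { toSubgroup := (S : Subgroup G).subgroupOf N
        isPGroup' := S.isPGroup'.comap_subtype
        is_maximal' := fun {Q} hQ hle => by
          refine le_antisymm (fun q hq => ?_) hle
          exact hV _ (map_subtype_le Q) (hQ.map _) (fun x hx => ⟨⟨x, hx.2⟩, hle hx.1, rfl⟩)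
            (mem_map_of_mem _ hq) }
    have hfix : ∀ n ∈ normalizer (((VN : Subgroup N)) : Set N), n * ⟨v, hv.2⟩ = ⟨v, hv.2⟩ * n := by
      intro n hn
      have hnS : (n : G) ∈ normalizer ((S : Subgroup G) : Set G) := by
        refine mem_normalizer_iff.2 fun x => ?_
        have hnt : (n : G) * t * (n : G)⁻¹ = t := by rw [hNt _ n.2, mul_inv_cancel_right]
        have hVn : ∀ y : G, (y ∈ (S : Subgroup G) ∧ y ∈ N) ↔
            ((n : G) * y * (n : G)⁻¹ ∈ (S : Subgroup G) ∧ (n : G) * y * (n : G)⁻¹ ∈ N) := by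
          intro y
          constructor
          · intro hy
            exact ⟨(mem_normalizer_iff.1 hn ⟨y, hy.2⟩).1 hy.1, mul_mem (mul_mem n.2 hy.2) (inv_mem n.2)⟩
          · intro hy
            have hyN : y ∈ N := by
              have := mul_mem (mul_mem (inv_mem n.2) hy.2) n.2
              rwa [show (n : G)⁻¹ * ((n : G) * y * (n : G)⁻¹) * n = y by group] at this
            exact ⟨(mem_normalizer_iff.1 hn ⟨y, hyN⟩).2 hy.1, hyN⟩
        have hmul : (n : G) * (t * x) * (n : G)⁻¹ = t * ((n : G) * x * (n : G)⁻¹) := by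
          rw [show (n : G) * (t * x) * (n : G)⁻¹ = (n : G) * t * (n : G)⁻¹ * ((n : G) * x * (n : G)⁻¹) by group, hnt]
        constructor <;> intro hx
        · rcases hdec x hx with h | h
          · exact ((hVn x).1 ⟨hx, h⟩).1
          · have h' := ((hVn (t * x)).1 ⟨mul_mem htS hx, h⟩).1
            rw [hmul] at h'
            exact (Subgroup.mul_mem_cancel_left _ htS).1 h'
        · rcases hdec _ hx with h | h
          · exact ((hVn x).2 ⟨hx, h⟩).1
          · have h' := ((hVn (t * x)).2 (hmul ▸ ⟨mul_mem htS hx, h⟩)).1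
            exact (Subgroup.mul_mem_cancel_left _ htS).1 h'
      have hm : (n : G) * v * (n : G)⁻¹ ∈ R ⊓ N := ⟨hRinv _ hnS v hv.1, N.mul_mem (N.mul_mem n.2 hv.2) (N.inv_mem n.2)⟩
      obtain ⟨w, hw⟩ := (Nat.card_eq_two_iff' (1 : ↥(R ⊓ N))).1 hk1
      have e1 := hw.2 ⟨_, hm⟩ (fun e => hv1 (conj_eq_one_iff.1 (congrArg Subtype.val e)))
      have e2 := hw.2 ⟨v, hv⟩ (fun e => hv1 (congrArg Subtype.val e))
      exact Subtype.ext (mul_inv_eq_iff_eq_mul.1 (congrArg Subtype.val (e1.trans e2.symm)))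
    have h2N : 2 ∣ Nat.card N := by
      rw [← hk1]; exact Subgroup.card_dvd_of_le inf_le_right
    have hvv : (⟨v, hv.2⟩ : N) ^ 2 ^ 2 = 1 := by
      have h := pow_card_eq_one' (x := (⟨v, hv⟩ : ↥(R ⊓ N)))
      rw [hk1] at h
      refine Subtype.ext ?_
      show v ^ 2 ^ 2 = 1
      rw [show (2 : ℕ) ^ 2 = 2 * 2 by norm_num, pow_mul, show v ^ 2 = 1 from congrArg Subtype.val h, one_pow]
    have h := CfsgLib.AbelianSylowZStar.central_of_fixed 2 N (core_bot h2N) VN
      (fun a ha b hb => Subtype.ext (hab _ ha _ hb)) ⟨v, hv.2⟩ hv.1.1 hfix hvv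
    rw [center_bot hnc, mem_bot] at h
    exact hv1 (congrArg Subtype.val h)
  have hSR : (S : Subgroup G) ≤ R := fun s hs => by
    rcases hdec s hs with h | h
    · exact hRV ⟨hs, h⟩
    · exact ((Subgroup.mul_mem_cancel_left R htR).1 (hRV ⟨mul_mem htS hs, h⟩))
  -- the transfer
  let T : Subgroup L := (S : Subgroup G).comap φ
  haveI : IsMulCommutative T := ⟨⟨fun a b => Subtype.ext ((hSR a.2).2 a b rfl b.2)⟩⟩
  letI : CommGroup T := { (inferInstance : Group T) with mul_comm := fun a b => Subtype.ext ((hSR a.2).2 a b rfl b.2) }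
  rw [eq_bot_iff]
  intro z hz'
  have key : ∀ (k : ℕ) (g₀ : L), g₀⁻¹ * z ^ k * g₀ ∈ T → g₀⁻¹ * z ^ k * g₀ = z ^ k := fun k g₀ _ => by
    rw [mul_assoc, hzc _ (pow_mem hz' k) g₀, inv_mul_cancel_left]
  have htr := MonoidHom.transfer_eq_pow (MonoidHom.id T) z key
  have hone : MonoidHom.transfer (MonoidHom.id T) z = 1 := by
    have : commutator L ≤ (MonoidHom.transfer (MonoidHom.id T)).ker := Abelianization.commutator_subset_ker _
    exact this (hperf.symm ▸ mem_top z)
  rw [hone] at htr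
  have h1 : z ^ T.index = 1 := (congrArg Subtype.val htr).symm
  have hidx : ¬ 2 ∣ T.index := by
    rw [index_comap_of_surjective _ hφ]
    exact S.not_dvd_index
  obtain ⟨k, hk⟩ := (IsPGroup.iff_orderOf.1 hkp) ⟨z, hz'⟩
  rw [Subgroup.orderOf_mk] at hk
  have h3 := hk ▸ orderOf_dvd_of_pow_eq_one h1
  rcases k with _ | k
  · exact mem_bot.2 (orderOf_eq_one_iff.1 hk)
  · exact absurd ((dvd_pow_self 2 (Nat.succ_ne_zero k)).trans h3) hidx

end CfsgLib.PslTimesTwo
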